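import Mathlib
import Cfsg.Agent.Lib.Helper26.FusSat3

/-!
# Camina–Herzog for saturated fusion systems over a 2-group

If every element of `S` is conjugate in the saturated system `F` to an element of `Z(S)`,
then `S` is abelian.  Same elementary argument as in `CamHer`.
-/

set_option autoImplicit false

namespace Cfsg.Agent.Lib.Helper29.CamHerFus

open Cfsg Cfsg.FusionSystem Cfsg.Agent.Lib.Helper26

universe u

variable {Ω : Type u} [Group Ω] {S : Subgroup Ω}

/-- the purely group-theoretic skeleton -/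
theorem abstract_main (S : Subgroup Ω) (hS : ∀ s ∈ S, ∃ j : ℕ, s ^ (2 ^ j) = 1)
    (hB : ∀ g ∈ S, (∀ q ∈ S, q * (g * g) = (g * g) * q) →
      ∃ c ∈ S, (∀ q ∈ S, q * c = c * q) ∧ c * c = g * g)
    (hC : ∀ x ∈ S, ∀ s ∈ S, x * x = 1 → x * (s * s) = (s * s) * x → x * s = s * x) :
    ∀ a ∈ S, ∀ b ∈ S, a * b = b * a := by
  have hD : ∀ x ∈ S, x * x = 1 → ∀ s ∈ S, x * s = s * x := by
    intro x hx hxx
    have key : ∀ k : ℕ, ∀ s ∈ S, s ^ (2 ^ k) = 1 → x * s = s * x := by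
      intro k
      induction k with
      | zero =>
        intro s _ hs1
        rw [pow_zero, pow_one] at hs1
        rw [hs1, mul_one, one_mul]
      | succ k ih =>
        intro s hs hs1
        have h1 : (s * s) ^ (2 ^ k) = 1 := by
          rw [← pow_two, ← pow_mul, ← pow_succ']; exact hs1
        exact hC x hx s hs hxx (ih (s * s) (S.mul_mem hs hs) h1)
    intro s hs
    obtain ⟨k, hk⟩ := hS s hs
    exact key k s hs hk
  have key : ∀ k : ℕ, ∀ g ∈ S, (∀ q ∈ S, q * g ^ (2 ^ k) = g ^ (2 ^ k) * q) →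
      ∀ q ∈ S, q * g = g * q := by
    intro k
    induction k with
    | zero =>
      intro g _ hc q hq
      have := hc q hq
      rwa [pow_zero, pow_one] at this
    | succ k ih =>
      intro g hg hc
      have hpow : (g * g) ^ (2 ^ k) = g ^ (2 ^ (k + 1)) := by
        rw [← pow_two, ← pow_mul, ← pow_succ']
      have h1 : ∀ q ∈ S, q * (g * g) = (g * g) * q := by
        apply ih (g * g) (S.mul_mem hg hg)
        intro q hq
        rw [hpow]; exact hc q hq
      obtain ⟨c, hcP, hcc, hcsq⟩ := hB g hg h1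
      have hgc : g * c = c * g := hcc g hg
      have hgc' : g * c⁻¹ = c⁻¹ * g := by
        calc g * c⁻¹ = c⁻¹ * (c * g) * c⁻¹ := by group
          _ = c⁻¹ * (g * c) * c⁻¹ := by rw [hgc]
          _ = c⁻¹ * g := by group
      have htt : (g * c⁻¹) * (g * c⁻¹) = 1 := by
        calc (g * c⁻¹) * (g * c⁻¹) = g * (c⁻¹ * g) * c⁻¹ := by group
          _ = g * (g * c⁻¹) * c⁻¹ := by rw [hgc']
          _ = (g * g) * (c * c)⁻¹ := by group
          _ = 1 := by rw [hcsq, mul_inv_cancel]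
      have h2 := hD (g * c⁻¹) (S.mul_mem hg (S.inv_mem hcP)) htt
      intro q hq
      have h3 := h2 q hq
      have h4 := hcc q hq
      calc q * g = (q * (g * c⁻¹)) * c := by group
        _ = ((g * c⁻¹) * q) * c := by rw [h3]
        _ = (g * c⁻¹) * (q * c) := by group
        _ = (g * c⁻¹) * (c * q) := by rw [h4]
        _ = g * q := by group
  intro a ha b hb
  obtain ⟨k, hk⟩ := hS b hb
  exact key k b hb (by intro q _; rw [hk, mul_one, one_mul]) a ha

/-- `z` lies in the centre of `S` -/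
def Cen (S : Subgroup Ω) (z : Ω) : Prop := z ∈ S ∧ ∀ q ∈ S, q * z = z * q

theorem zpow_cen {z : Ω} (hz : Cen S z) : ∀ x ∈ Subgroup.zpowers z, ∀ q ∈ S, q * x = x * q := by
  have hle : Subgroup.zpowers z ≤ Subgroup.centralizer (S : Set Ω) := by
    rw [Subgroup.zpowers_le, Subgroup.mem_centralizer_iff]
    exact hz.2
  intro x hx q hq
  exact Subgroup.mem_centralizer_iff.1 (hle hx) q hq

theorem central_fn [Finite S] (F : FusionSystem S) {z : Ω} (hz : Cen S z) :
    F.IsFullyNormalized (Subgroup.zpowers z) := by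
  have hzS : Subgroup.zpowers z ≤ S := by rw [Subgroup.zpowers_le]; exact hz.1
  refine ⟨hzS, fun R _ => ?_⟩
  have h1 : normalizerIn S (Subgroup.zpowers z) = S := by
    apply le_antisymm (normalizerIn_le S _)
    intro g hg
    refine ⟨hg, Subgroup.centralizer_le_normalizer _ ?_⟩
    rw [Subgroup.mem_centralizer_iff]
    intro x hx
    exact (zpow_cen hz x hx g hg).symm
  rw [h1]
  exact Subgroup.card_le_of_le (normalizerIn_le S R)

theorem central_props [Finite S] (hS : IsPGroup 2 S) (F : FusionSystem S) (hF : F.IsSaturated 2)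
    {z : Ω} (hz : Cen S z) :
    F.IsFullyAutomized 2 (Subgroup.zpowers z) ∧ F.IsReceptive (Subgroup.zpowers z) := by
  haveI : Fact (Nat.Prime 2) := ⟨Nat.prime_two⟩
  obtain ⟨hfc, hfa⟩ := fullyNormalized_props hS F hF (central_fn F hz)
  exact ⟨hfa, fullyCentralized_receptive hS F hF hfc⟩

theorem range_eq {k z : Ω} {φ : ↥(Subgroup.zpowers k) →* Ω}
    (hφz : φ ⟨k, Subgroup.mem_zpowers k⟩ = z) : φ.range = Subgroup.zpowers z := by
  ext y
  constructor
  · rintro ⟨x, rfl⟩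
    obtain ⟨n, hn⟩ := Subgroup.mem_zpowers_iff.1 x.2
    have hx : x = (⟨k, Subgroup.mem_zpowers k⟩ : ↥(Subgroup.zpowers k)) ^ n := by
      apply Subtype.ext
      rw [Subgroup.coe_zpow]
      exact hn.symm
    rw [hx, map_zpow, hφz]
    exact Subgroup.zpow_mem_zpowers z n
  · intro hy
    obtain ⟨n, rfl⟩ := Subgroup.mem_zpowers_iff.1 hy
    exact ⟨(⟨k, Subgroup.mem_zpowers k⟩ : ↥(Subgroup.zpowers k)) ^ n, by rw [map_zpow, hφz]⟩

section steps

variable [Finite S] (hS : IsPGroup 2 S) (F : FusionSystem S) (hF : F.IsSaturated 2)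
  (h : ∀ x ∈ S, ∃ z ∈ S ⊓ Subgroup.centralizer (S : Set Ω), F.IsConjElt x z)

include hS hF h

/-- **Step A**: no element of `S` inverts an element of `S` of order at least 4. -/
theorem inv_sq (k a : Ω) (hk : k ∈ S) (ha : a ∈ S) (hinv : a * k * a⁻¹ = k⁻¹) : k * k = 1 := by
  haveI : Fact (Nat.Prime 2) := ⟨Nat.prime_two⟩
  obtain ⟨z, hz, φ, hφ, hφz⟩ := h k hk
  have hzc : Cen S z := ⟨hz.1, fun q hq => Subgroup.mem_centralizer_iff.1 hz.2 q hq⟩
  have hzS : Subgroup.zpowers z ≤ S := by rw [Subgroup.zpowers_le]; exact hz.1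
  have hkS : Subgroup.zpowers k ≤ S := by rw [Subgroup.zpowers_le]; exact hk
  have hr : φ.range = Subgroup.zpowers z := range_eq hφz
  obtain ⟨e, he, hex⟩ := exists_iso_of_mem F hφ hr
  obtain ⟨hfa, -⟩ := central_props hS F hF hzc
  haveI : Finite ↥(Subgroup.zpowers k) := finite_of_le hkS
  haveI : Finite ↥(Subgroup.zpowers z) := finite_of_le hzS
  -- conjugation by `a` inverts `zpowers k`
  have hai : ∀ x ∈ Subgroup.zpowers k, a * x * a⁻¹ = x⁻¹ := by
    intro x hx
    obtain ⟨n, rfl⟩ := Subgroup.mem_zpowers_iff.1 hx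
    rw [← conj_zpow, hinv, inv_zpow]
  have haN : a ∈ Subgroup.normalizer ((Subgroup.zpowers k : Subgroup Ω) : Set Ω) := by
    apply mem_normalizer_of_forall_conj_mem
    intro x hx
    rw [hai x hx]
    exact (Subgroup.zpowers k).inv_mem hx
  have hα₀ : (Subgroup.zpowers k).normalizerMonoidHom ⟨a, haN⟩ ∈ F.autGroup (Subgroup.zpowers k) :=
    autInducedBy_le_autGroup F hkS (conj_mem_autInducedBy ha haN)
  have hα₀x : ∀ x : ↥(Subgroup.zpowers k),
      (Subgroup.zpowers k).normalizerMonoidHom ⟨a, haN⟩ x = x⁻¹ := by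
    intro x
    apply Subtype.ext
    rw [normalizerMonoidHom_coe]
    exact hai x x.2
  have hβ : MulAut.congr e ((Subgroup.zpowers k).normalizerMonoidHom ⟨a, haN⟩) ∈
      F.autGroup (Subgroup.zpowers z) := (autGroup_congr F he _).2 hα₀
  have hβy : ∀ y : ↥(Subgroup.zpowers z),
      MulAut.congr e ((Subgroup.zpowers k).normalizerMonoidHom ⟨a, haN⟩) y = y⁻¹ := by
    intro y
    have h1 : MulAut.congr e ((Subgroup.zpowers k).normalizerMonoidHom ⟨a, haN⟩) y =
        e ((Subgroup.zpowers k).normalizerMonoidHom ⟨a, haN⟩ (e.symm y)) := rfl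
    rw [h1, hα₀x, map_inv, MulEquiv.apply_symm_apply]
  set β := MulAut.congr e ((Subgroup.zpowers k).normalizerMonoidHom ⟨a, haN⟩) with hβdef
  have hβ2 : β ^ (2 ^ 1) = 1 := by
    ext y
    rw [pow_one, pow_two, MulAut.mul_apply, hβy, hβy, inv_inv]
    rfl
  have hX : IsPGroup 2 (Subgroup.zpowers β) := isPGroup_zpowers_of_pow_eq_one hβ2
  have hXA : Subgroup.zpowers β ≤ F.autGroup (Subgroup.zpowers z) := by
    rw [Subgroup.zpowers_le]; exact hβ
  obtain ⟨g, -, hg⟩ := ((isFullyAutomized_iff F 2 _).1 hfa).2.conj_le hXA hX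
  obtain ⟨s, hs, hsx⟩ := mem_autInducedBy_iff.1 (hg β (Subgroup.mem_zpowers β))
  have h2 : g * β * g⁻¹ = 1 := by
    ext x
    rw [hsx x]
    have h3 : s * (x : Ω) = (x : Ω) * s := zpow_cen hzc x x.2 s hs
    rw [h3]
    simp
  have h3 : β = 1 := conj_eq_one_iff.1 h2
  have h4 := hβy ⟨z, Subgroup.mem_zpowers z⟩
  rw [h3] at h4
  have h5 : z = z⁻¹ := congrArg Subtype.val h4
  have h6 : z * z = 1 := by
    nth_rewrite 1 [h5]
    exact inv_mul_cancel z
  have h7 : φ ((⟨k, Subgroup.mem_zpowers k⟩ : ↥(Subgroup.zpowers k)) *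
      ⟨k, Subgroup.mem_zpowers k⟩) = φ 1 := by
    rw [map_mul, hφz, h6, map_one]
  have h8 := F.injective_of_mem hφ h7
  exact congrArg Subtype.val h8

/-- **Step B**: a central square has a central square root. -/
theorem sq_root (g : Ω) (hg : g ∈ S) (hgc : ∀ q ∈ S, q * (g * g) = (g * g) * q) :
    ∃ c ∈ S, (∀ q ∈ S, q * c = c * q) ∧ c * c = g * g := by
  haveI : Fact (Nat.Prime 2) := ⟨Nat.prime_two⟩
  obtain ⟨z, hz, φ, hφ, hφz⟩ := h g hg
  have hzc : Cen S z := ⟨hz.1, fun q hq => Subgroup.mem_centralizer_iff.1 hz.2 q hq⟩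
  have hzzc : Cen S (z * z) := by
    refine ⟨S.mul_mem hz.1 hz.1, fun q hq => ?_⟩
    have h1 := hzc.2 q hq
    calc q * (z * z) = (q * z) * z := by group
      _ = (z * q) * z := by rw [h1]
      _ = z * (q * z) := by group
      _ = z * (z * q) := by rw [h1]
      _ = z * z * q := by group
  have hwc : Cen S (g * g) := ⟨S.mul_mem hg hg, hgc⟩
  have hle : Subgroup.zpowers (g * g) ≤ Subgroup.zpowers g := by
    rw [Subgroup.zpowers_le]
    exact (Subgroup.zpowers g).mul_mem (Subgroup.mem_zpowers g) (Subgroup.mem_zpowers g)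
  have hφ' := restrict_mem F hφ hle
  have hφ'w : (φ.comp (Subgroup.inclusion hle)) ⟨g * g, Subgroup.mem_zpowers (g * g)⟩ = z * z := by
    have h1 : Subgroup.inclusion hle ⟨g * g, Subgroup.mem_zpowers (g * g)⟩ =
        (⟨g, Subgroup.mem_zpowers g⟩ : ↥(Subgroup.zpowers g)) * ⟨g, Subgroup.mem_zpowers g⟩ :=
      Subtype.ext rfl
    rw [MonoidHom.comp_apply, h1, map_mul, hφz]
  have hr : (φ.comp (Subgroup.inclusion hle)).range = Subgroup.zpowers (z * z) := range_eq hφ'w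
  obtain ⟨e, he, hex⟩ := exists_iso_of_mem F hφ' hr
  obtain ⟨-, hrec⟩ := central_props hS F hF hzzc
  obtain ⟨ψ, hψ, hext⟩ := receptive_extend F hrec he
  have hSE : S ≤ extender S (Subgroup.zpowers (g * g))
      ((Subgroup.zpowers (z * z)).subtype.comp e.toMonoidHom) := by
    intro s hs
    apply centralizerIn_le_extender
    refine ⟨hs, Subgroup.mem_centralizer_iff.2 ?_⟩
    intro x hx
    exact (zpow_cen hwc x hx s hs).symm
  have hψS := restrict_mem F hψ hSE
  have hinj := F.injective_of_mem hψS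
  have hval := (F.le_of_mem hψS).2
  have hwS : g * g ∈ S := S.mul_mem hg hg
  have hψw : (ψ.comp (Subgroup.inclusion hSE)) ⟨g * g, hwS⟩ = z * z := by
    have h1 := hext ⟨g * g, Subgroup.mem_zpowers (g * g)⟩ (hSE hwS)
    have h2 := hex ⟨g * g, Subgroup.mem_zpowers (g * g)⟩
    rw [hφ'w] at h2
    have h3 : (ψ.comp (Subgroup.inclusion hSE)) ⟨g * g, hwS⟩ = ψ ⟨g * g, hSE hwS⟩ := rfl
    rw [h3]
    exact h1.trans h2
  -- surjectivity onto `S`
  have hsurj : Function.Surjective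
      (fun s : S => (⟨(ψ.comp (Subgroup.inclusion hSE)) s, hval s⟩ : S)) := by
    apply Finite.surjective_of_injective
    intro a b hab
    exact hinj (congrArg Subtype.val hab)
  obtain ⟨c, hc⟩ := hsurj ⟨z, hz.1⟩
  have hc' : (ψ.comp (Subgroup.inclusion hSE)) c = z := congrArg Subtype.val hc
  refine ⟨c, c.2, ?_, ?_⟩
  · intro q hq
    have h1 : (ψ.comp (Subgroup.inclusion hSE)) (⟨q, hq⟩ * c) =
        (ψ.comp (Subgroup.inclusion hSE)) (c * ⟨q, hq⟩) := by
      rw [map_mul, map_mul, hc']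
      exact hzc.2 _ (hval ⟨q, hq⟩)
    exact congrArg Subtype.val (hinj h1)
  · have h1 : (ψ.comp (Subgroup.inclusion hSE)) (c * c) =
        (ψ.comp (Subgroup.inclusion hSE)) ⟨g * g, hwS⟩ := by
      rw [map_mul, hc', hψw]
    exact congrArg Subtype.val (hinj h1)

/-- **Step C**: an involution commuting with `s * s` commutes with `s`. -/
theorem comm_of_sq (x : Ω) (hx : x ∈ S) (s : Ω) (hs : s ∈ S) (hxx : x * x = 1)
    (hxs : x * (s * s) = (s * s) * x) : x * s = s * x := by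
  haveI : Fact (Nat.Prime 2) := ⟨Nat.prime_two⟩
  obtain ⟨z, hz, φ, hφ, hφz⟩ := h (s * s) (S.mul_mem hs hs)
  have hzc : Cen S z := ⟨hz.1, fun q hq => Subgroup.mem_centralizer_iff.1 hz.2 q hq⟩
  have hr : φ.range = Subgroup.zpowers z := range_eq hφz
  obtain ⟨e, he, hex⟩ := exists_iso_of_mem F hφ hr
  obtain ⟨-, hrec⟩ := central_props hS F hF hzc
  obtain ⟨ψ, hψ, hext⟩ := receptive_extend F hrec he
  have hval := (F.le_of_mem hψ).2
  have hinj := F.injective_of_mem hψ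
  -- elements of `S` commuting with `s * s` lie in the extender
  have hE : ∀ u ∈ S, u * (s * s) = (s * s) * u → u ∈ extender S (Subgroup.zpowers (s * s))
      ((Subgroup.zpowers z).subtype.comp e.toMonoidHom) := by
    intro u hu huc
    apply centralizerIn_le_extender
    have hle : Subgroup.zpowers (s * s) ≤ Subgroup.centralizer ({u} : Set Ω) := by
      rw [Subgroup.zpowers_le, Subgroup.mem_centralizer_iff]
      intro v hv
      rw [Set.mem_singleton_iff] at hv
      rw [hv]; exact huc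
    refine ⟨hu, Subgroup.mem_centralizer_iff.2 ?_⟩
    intro v hv
    exact (Subgroup.mem_centralizer_iff.1 (hle hv) u rfl).symm
  have hxE := hE x hx hxs
  have hsE := hE s hs (by group)
  have hssE := hE (s * s) (S.mul_mem hs hs) rfl
  -- images
  have hx'S := hval ⟨x, hxE⟩
  have hs'S := hval ⟨s, hsE⟩
  have hx'x' : ψ ⟨x, hxE⟩ * ψ ⟨x, hxE⟩ = 1 := by
    rw [← map_mul]
    have : (⟨x, hxE⟩ : ↥(extender S (Subgroup.zpowers (s * s))
      ((Subgroup.zpowers z).subtype.comp e.toMonoidHom))) * ⟨x, hxE⟩ = 1 := Subtype.ext hxx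
    rw [this, map_one]
  have hs's' : ψ ⟨s, hsE⟩ * ψ ⟨s, hsE⟩ = z := by
    rw [← map_mul]
    have h0 : (⟨s, hsE⟩ : ↥(extender S (Subgroup.zpowers (s * s))
      ((Subgroup.zpowers z).subtype.comp e.toMonoidHom))) * ⟨s, hsE⟩ = ⟨s * s, hssE⟩ := Subtype.ext rfl
    rw [h0]
    have h1 := hext ⟨s * s, Subgroup.mem_zpowers (s * s)⟩ hssE
    have h2 := hex ⟨s * s, Subgroup.mem_zpowers (s * s)⟩
    rw [hφz] at h2
    exact h1.trans h2
  have hcen : ∀ q ∈ S, q * (ψ ⟨s, hsE⟩ * ψ ⟨s, hsE⟩) = (ψ ⟨s, hsE⟩ * ψ ⟨s, hsE⟩) * q := by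
    intro q hq
    rw [hs's']; exact hzc.2 q hq
  obtain ⟨c, hcS, hcc, hcsq⟩ := sq_root hS F hF h (ψ ⟨s, hsE⟩) hs'S hcen
  set x' := ψ ⟨x, hxE⟩ with hx'def
  set s' := ψ ⟨s, hsE⟩ with hs'def
  have hcs : s' * c = c * s' := hcc s' hs'S
  have hcx : x' * c = c * x' := hcc x' hx'S
  have hcs' : s' * c⁻¹ = c⁻¹ * s' := by
    calc s' * c⁻¹ = c⁻¹ * (c * s') * c⁻¹ := by group
      _ = c⁻¹ * (s' * c) * c⁻¹ := by rw [hcs]
      _ = c⁻¹ * s' := by group
  have htt : (s' * c⁻¹) * (s' * c⁻¹) = 1 := by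
    calc (s' * c⁻¹) * (s' * c⁻¹) = s' * (c⁻¹ * s') * c⁻¹ := by group
      _ = s' * (s' * c⁻¹) * c⁻¹ := by rw [hcs']
      _ = (s' * s') * (c * c)⁻¹ := by group
      _ = 1 := by rw [hcsq, mul_inv_cancel]
  have hxinv : x'⁻¹ = x' := inv_eq_of_mul_eq_one_right hx'x'
  have htinv : (s' * c⁻¹)⁻¹ = s' * c⁻¹ := inv_eq_of_mul_eq_one_right htt
  have hkS : x' * (s' * c⁻¹) ∈ S := S.mul_mem hx'S (S.mul_mem hs'S (S.inv_mem hcS))
  have hinv : x' * (x' * (s' * c⁻¹)) * x'⁻¹ = (x' * (s' * c⁻¹))⁻¹ := by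
    rw [mul_inv_rev, htinv]
    calc x' * (x' * (s' * c⁻¹)) * x'⁻¹ = (x' * x') * (s' * c⁻¹) * x'⁻¹ := by group
      _ = s' * c⁻¹ * x'⁻¹ := by rw [hx'x', one_mul]
  have hkk := inv_sq hS F hF h (x' * (s' * c⁻¹)) x' hkS hx'S hinv
  have hxt : x' * (s' * c⁻¹) = (s' * c⁻¹) * x' := by
    have h1 : x' * (s' * c⁻¹) = (x' * (s' * c⁻¹))⁻¹ := (inv_eq_of_mul_eq_one_right hkk).symm
    rw [mul_inv_rev, htinv, hxinv] at h1
    exact h1
  have hcomm : x' * s' = s' * x' := by
    calc x' * s' = (x' * (s' * c⁻¹)) * c := by group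
      _ = ((s' * c⁻¹) * x') * c := by rw [hxt]
      _ = (s' * c⁻¹) * (x' * c) := by group
      _ = (s' * c⁻¹) * (c * x') := by rw [hcx]
      _ = s' * x' := by group
  have hfin : ψ (⟨x, hxE⟩ * ⟨s, hsE⟩) = ψ (⟨s, hsE⟩ * ⟨x, hxE⟩) := by
    rw [map_mul, map_mul]; exact hcomm
  exact congrArg Subtype.val (hinj hfin)

/-- `S` is commutative. -/
theorem main : ∀ a ∈ S, ∀ b ∈ S, a * b = b * a := by
  apply abstract_main S
  · intro s hs
    obtain ⟨j, hj⟩ := hS ⟨s, hs⟩
    exact ⟨j, by simpa using congrArg Subtype.val hj⟩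
  · exact sq_root hS F hF h
  · intro x hx s hs hxx hxs
    exact comm_of_sq hS F hF h x hx s hs hxx hxs

end steps

end Cfsg.Agent.Lib.Helper29.CamHerFus
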