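import Mathlib

/-!
An involution normalizing a subgroup of odd order whose order is divisible by the prime `p`
centralizes or inverts some element of order `p` of it.
-/

set_option autoImplicit false

namespace Cfsg.Agent.Lib.Helper29.InvAct

open scoped Pointwise

theorem exists_inv_or_cent {G : Type*} [Group G] [Finite G] (z : G) (hz : orderOf z = 2)
    (N : Subgroup G) (hzN : z ∈ Subgroup.normalizer (N : Set G)) (hodd : Odd (Nat.card N))
    (p : ℕ) [Fact p.Prime] (hp : p ∣ Nat.card N) :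
    ∃ x : G, x ∈ N ∧ orderOf x = p ∧ (z * x * z⁻¹ = x ∨ z * x * z⁻¹ = x⁻¹) := by
  haveI : Fact (Nat.Prime 2) := ⟨Nat.prime_two⟩
  have hzz : z * z = 1 := by rw [← pow_two, ← hz, pow_orderOf_eq_one]
  have hzi : z⁻¹ = z := inv_eq_of_mul_eq_one_left hzz
  have hmem : ∀ x : N, z * (x : G) * z⁻¹ ∈ N :=
    fun x => (Subgroup.mem_normalizer_iff.mp hzN x).mp x.2
  have hinvol : ∀ x : G, z * (z * x * z⁻¹) * z⁻¹ = x := by
    intro x
    rw [hzi]
    calc z * (z * x * z) * z = (z * z) * x * (z * z) := by group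
      _ = x := by rw [hzz, one_mul, mul_one]
  obtain ⟨φ, hφ⟩ : ∃ φ : MulAut N, ∀ x : N, ((φ x : N) : G) = z * (x : G) * z⁻¹ :=
    ⟨{ toFun := fun x => ⟨z * x * z⁻¹, hmem x⟩
       invFun := fun x => ⟨z * x * z⁻¹, hmem x⟩
       left_inv := by
         intro x
         apply Subtype.ext
         exact hinvol x
       right_inv := by
         intro x
         apply Subtype.ext
         exact hinvol x
       map_mul' := by
         intro a b
         apply Subtype.ext
         show z * ((a : G) * b) * z⁻¹ = (z * a * z⁻¹) * (z * b * z⁻¹)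
         group }, fun _ => rfl⟩
  have hφφ : ∀ x : N, φ (φ x) = x := by
    intro x
    apply Subtype.ext
    rw [hφ, hφ]
    exact hinvol x
  have hφ2 : φ * φ = 1 := by
    apply MulEquiv.ext
    intro x
    exact hφφ x
  have hZ : IsPGroup 2 (Subgroup.zpowers φ) := by
    rintro ⟨g, hg⟩
    obtain ⟨j, rfl⟩ := Subgroup.mem_zpowers_iff.mp hg
    refine ⟨1, ?_⟩
    apply Subtype.ext
    show (φ ^ j) ^ 2 ^ 1 = 1
    rw [pow_one, ← zpow_natCast, ← zpow_mul, mul_comm, zpow_mul, zpow_natCast, pow_two, hφ2,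
      one_zpow]
  have hcard : ¬ 2 ∣ Nat.card (Sylow p N) := by
    obtain ⟨P⟩ : Nonempty (Sylow p N) := inferInstance
    intro h2
    have h1 := (h2.trans (Sylow.card_dvd_index P)).trans (Subgroup.index_dvd_card _)
    exact (Nat.not_even_iff_odd.mpr hodd) (even_iff_two_dvd.mpr h1)
  obtain ⟨P, hP⟩ := hZ.nonempty_fixed_point_of_prime_not_dvd_card (Sylow p N) hcard
  have hfix : φ • P = P :=
    (MulAction.mem_fixedPoints.mp hP) ⟨φ, Subgroup.mem_zpowers φ⟩
  have hPinv : ∀ x : N, x ∈ P → φ x ∈ P := by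
    intro x hx
    have h1 : φ • x ∈ φ • (P : Subgroup N) := Subgroup.smul_mem_pointwise_smul x φ _ hx
    rw [← Sylow.pointwise_smul_def, hfix] at h1
    exact h1
  have hPne : (P : Subgroup N) ≠ ⊥ := Sylow.ne_bot_of_dvd_card P hp
  haveI hPnt : Nontrivial (P : Subgroup N) := (Subgroup.nontrivial_iff_ne_bot _).mpr hPne
  haveI hcnt : Nontrivial (Subgroup.center (P : Subgroup N)) := P.2.center_nontrivial
  have hpc : p ∣ Nat.card (Subgroup.center (P : Subgroup N)) := by
    have hpg : IsPGroup p (Subgroup.center (P : Subgroup N)) := P.2.to_subgroup _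
    rcases hpg.card_eq_or_dvd with h | h
    · exfalso
      have := Finite.one_lt_card_iff_nontrivial.mpr hcnt
      omega
    · exact h
  obtain ⟨y₀, hy₀⟩ := exists_prime_orderOf_dvd_card' p hpc
  obtain ⟨y, hy⟩ : ∃ y : N, y = ((y₀ : (P : Subgroup N)) : N) := ⟨_, rfl⟩
  have hyP : y ∈ P := by rw [hy]; exact (y₀ : (P : Subgroup N)).2
  have hyo : orderOf y = p := by
    rw [hy, Subgroup.orderOf_coe, Subgroup.orderOf_coe]
    exact hy₀
  have hycent : ∀ q : N, q ∈ P → q * y = y * q := by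
    intro q hq
    have h1 := Subgroup.mem_center_iff.mp y₀.2 ⟨q, hq⟩
    have h2 := congrArg Subtype.val h1
    rw [hy]
    exact h2
  have hy'P : φ y ∈ P := hPinv y hyP
  have hcomm : φ y * y = y * φ y := hycent (φ y) hy'P
  by_cases hu : y * φ y = 1
  · refine ⟨(y : G), y.2, by rw [Subgroup.orderOf_coe]; exact hyo, Or.inr ?_⟩
    rw [← hφ]
    have h1 : φ y = y⁻¹ := by
      rw [eq_inv_iff_mul_eq_one, hcomm]
      exact hu
    rw [h1]
    rfl
  · refine ⟨((y * φ y : N) : G), (y * φ y).2, ?_, Or.inl ?_⟩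
    · rw [Subgroup.orderOf_coe]
      apply orderOf_eq_prime _ hu
      have hc : Commute y (φ y) := hcomm.symm
      rw [hc.mul_pow, ← map_pow, ← hyo, pow_orderOf_eq_one, map_one, one_mul]
    · rw [← hφ, map_mul, hφφ, hcomm]

end Cfsg.Agent.Lib.Helper29.InvAct
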