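import Mathlib

/-!
For an involution `z` normalizing a subgroup `P` of odd order, the index of the centralizer of
`z` in `P` equals the number of elements of `P` inverted by `z`.
-/

set_option autoImplicit false

namespace Cfsg.Agent.Lib.Helper29.InvCount

theorem card_inverted {G : Type*} [Group G] [Finite G] (z : G) (hz : orderOf z = 2)
    (P : Subgroup G) (hodd : Odd (Nat.card P)) (hzP : z ∈ Subgroup.normalizer (P : Set G)) :
    (P ⊓ Subgroup.centralizer ({z} : Set G)).relIndex P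
      = Nat.card {x : G // x ∈ P ∧ z * x * z⁻¹ = x⁻¹} := by
  have hzz : z * z = 1 := by rw [← pow_two, ← hz, pow_orderOf_eq_one]
  have hzi : z⁻¹ = z := inv_eq_of_mul_eq_one_left hzz
  have hconj : ∀ x ∈ P, z * x * z⁻¹ ∈ P :=
    fun x hx => (Subgroup.mem_normalizer_iff.mp hzP x).mp hx
  obtain ⟨f, hf⟩ : ∃ f : P → {x : G // x ∈ P ∧ z * x * z⁻¹ = x⁻¹},
      ∀ x : P, ((f x : {x : G // x ∈ P ∧ z * x * z⁻¹ = x⁻¹}) : G)
        = (x : G) * z * (x : G)⁻¹ * z⁻¹ := by
    refine ⟨fun x => ⟨(x : G) * z * (x : G)⁻¹ * z⁻¹, ?_, ?_⟩, fun _ => rfl⟩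
    · have h1 : (x : G) * z * (x : G)⁻¹ * z⁻¹ = (x : G) * (z * (x : G)⁻¹ * z⁻¹) := by group
      rw [h1]
      exact P.mul_mem x.2 (hconj _ (P.inv_mem x.2))
    · rw [hzi]
      calc z * ((x : G) * z * (x : G)⁻¹ * z) * z
          = z * (x : G) * z * (x : G)⁻¹ * (z * z) := by group
        _ = ((x : G) * z * (x : G)⁻¹ * z)⁻¹ := by
          rw [hzz, mul_one, mul_inv_rev, mul_inv_rev, mul_inv_rev, inv_inv, hzi]
          group
  obtain ⟨H', hH'⟩ : ∃ H' : Subgroup P,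
      H' = (P ⊓ Subgroup.centralizer ({z} : Set G)).subgroupOf P := ⟨_, rfl⟩
  have hf_eq : ∀ a b : P, f a = f b ↔ a⁻¹ * b ∈ H' := by
    intro a b
    rw [hH', Subgroup.mem_subgroupOf, Subgroup.mem_inf, Subgroup.mem_centralizer_singleton_iff]
    constructor
    · intro h
      have h1 := congrArg Subtype.val h
      rw [hf, hf] at h1
      have h2 : (a : G) * z * (a : G)⁻¹ = (b : G) * z * (b : G)⁻¹ := mul_right_cancel h1
      refine ⟨(a⁻¹ * b).2, ?_⟩
      show (a : G)⁻¹ * (b : G) * z = z * ((a : G)⁻¹ * (b : G))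
      calc (a : G)⁻¹ * (b : G) * z = (a : G)⁻¹ * ((b : G) * z * (b : G)⁻¹) * b := by group
        _ = (a : G)⁻¹ * ((a : G) * z * (a : G)⁻¹) * b := by rw [h2]
        _ = z * ((a : G)⁻¹ * (b : G)) := by group
    · rintro ⟨-, h⟩
      have h' : (a : G)⁻¹ * (b : G) * z = z * ((a : G)⁻¹ * (b : G)) := h
      apply Subtype.ext
      rw [hf, hf]
      congr 1
      calc (a : G) * z * (a : G)⁻¹ = (a : G) * (z * ((a : G)⁻¹ * (b : G))) * (b : G)⁻¹ := by group
        _ = (a : G) * ((a : G)⁻¹ * (b : G) * z) * (b : G)⁻¹ := by rw [h']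
        _ = (b : G) * z * (b : G)⁻¹ := by group
  have hsurj : ∀ u : {x : G // x ∈ P ∧ z * x * z⁻¹ = x⁻¹}, ∃ x : P, f x = u := by
    rintro ⟨u, huP, hu⟩
    have hou : Odd (orderOf u) := hodd.of_dvd_nat (Subgroup.orderOf_dvd_natCard _ huP)
    obtain ⟨j, hj⟩ := hou
    have hxP : u ^ (j + 1) ∈ P := P.pow_mem huP _
    refine ⟨⟨u ^ (j + 1), hxP⟩, ?_⟩
    apply Subtype.ext
    rw [hf]
    show u ^ (j + 1) * z * (u ^ (j + 1))⁻¹ * z⁻¹ = u
    have h1 : z * (u ^ (j + 1))⁻¹ * z⁻¹ = u ^ (j + 1) := by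
      rw [← inv_pow, ← conj_pow, ← hu]
      have h2 : z * (z * u * z⁻¹) * z⁻¹ = u := by
        rw [hzi]
        calc z * (z * u * z) * z = (z * z) * u * (z * z) := by group
          _ = u := by rw [hzz, one_mul, mul_one]
      rw [h2]
    calc u ^ (j + 1) * z * (u ^ (j + 1))⁻¹ * z⁻¹
        = u ^ (j + 1) * (z * (u ^ (j + 1))⁻¹ * z⁻¹) := by group
      _ = u ^ (j + 1) * u ^ (j + 1) := by rw [h1]
      _ = u ^ (orderOf u + 1) := by rw [← pow_add, hj]; congr 1; ring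
      _ = u := by rw [pow_succ, pow_orderOf_eq_one, one_mul]
  have hlift : ∀ a b : P, (QuotientGroup.leftRel H') a b → f a = f b :=
    fun a b h => (hf_eq a b).mpr (QuotientGroup.leftRel_apply.mp h)
  have hbij : Function.Bijective (Quotient.lift f hlift) := by
    constructor
    · intro q1 q2 h
      obtain ⟨a, rfl⟩ := QuotientGroup.mk_surjective q1
      obtain ⟨b, rfl⟩ := QuotientGroup.mk_surjective q2
      have h' : f a = f b := h
      exact QuotientGroup.eq.mpr ((hf_eq a b).mp h')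
    · intro u
      obtain ⟨x, hx⟩ := hsurj u
      exact ⟨QuotientGroup.mk x, hx⟩
  have h1 : (P ⊓ Subgroup.centralizer ({z} : Set G)).relIndex P = Nat.card (P ⧸ H') := by
    rw [hH']
    rfl
  rw [h1]
  exact Nat.card_congr (Equiv.ofBijective _ hbij)

end Cfsg.Agent.Lib.Helper29.InvCount
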