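import Mathlib
import Cfsg.Agent.Lib.Helper18.UniqueInvolution
import Cfsg.Agent.Lib.Lead.Cores

set_option autoImplicit false

/-!
Finite `p`-groups in which subgroups of equal order are isomorphic: they are cyclic, quaternion of
order 8, or of exponent `p`; and in the last case abelian or of order `p ^ 3`.
-/

namespace Cfsg.Agent.Lib.Helper29.SameOrd

theorem zpowers_comm {Q : Type*} [Group Q] (g : Q) (a b : Q) (ha : a ∈ Subgroup.zpowers g)
    (hb : b ∈ Subgroup.zpowers g) : a * b = b * a := by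
  obtain ⟨m, rfl⟩ := Subgroup.mem_zpowers_iff.mp ha
  obtain ⟨n, rfl⟩ := Subgroup.mem_zpowers_iff.mp hb
  exact zpow_mul_comm g m n

theorem cyclic_comm {Q : Type*} [Group Q] [IsCyclic Q] (a b : Q) : a * b = b * a := by
  obtain ⟨g, hg⟩ := IsCyclic.exists_generator (α := Q)
  exact zpowers_comm g a b (hg a) (hg b)

/-- A generalized quaternion group of order at least 16 has two non-isomorphic subgroups of
order 8. -/
theorem quat_not_iso (k : ℕ) :
    ¬ (∀ H K : Subgroup (QuaternionGroup (2 ^ (k + 2))), Nat.card H = Nat.card K →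
      Nonempty (H ≃* K)) := by
  intro hI
  haveI : NeZero (2 ^ (k + 2)) := ⟨by positivity⟩
  obtain ⟨g₁, hg₁⟩ : ∃ g₁ : QuaternionGroup (2 ^ (k + 2)),
      g₁ = (QuaternionGroup.a 1) ^ (2 ^ k) := ⟨_, rfl⟩
  have ho1 : orderOf g₁ = 8 := by
    have hd : 2 ^ k ∣ orderOf (QuaternionGroup.a 1 : QuaternionGroup (2 ^ (k + 2))) := by
      rw [QuaternionGroup.orderOf_a_one]
      exact ⟨8, by ring⟩
    rw [hg₁, orderOf_pow_of_dvd (by positivity) hd, QuaternionGroup.orderOf_a_one]
    have h8 : 2 * 2 ^ (k + 2) = 8 * 2 ^ k := by ring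
    rw [h8, Nat.mul_div_cancel _ (by positivity)]
  have hc1 : Nat.card (Subgroup.zpowers g₁) = 2 ^ 3 := by
    rw [Nat.card_zpowers, ho1]; norm_num
  have hc2 : Nat.card (Subgroup.zpowers
      (QuaternionGroup.xa (0 : ZMod (2 * 2 ^ (k + 2))) : QuaternionGroup (2 ^ (k + 2)))) = 2 ^ 2 := by
    rw [Nat.card_zpowers, QuaternionGroup.orderOf_xa]; norm_num
  have hdvd : 2 ^ 3 ∣ Nat.card (QuaternionGroup (2 ^ (k + 2))) := by
    rw [Nat.card_eq_fintype_card, QuaternionGroup.card]
    exact ⟨2 ^ k * 2, by ring⟩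
  obtain ⟨K, hK, hle⟩ := Sylow.exists_subgroup_card_pow_prime_le 2 hdvd _ hc2 (by norm_num)
  obtain ⟨e⟩ := hI (Subgroup.zpowers g₁) K (by rw [hc1, hK])
  obtain ⟨w, hw⟩ : ∃ w : K, w = e ⟨g₁, Subgroup.mem_zpowers g₁⟩ := ⟨_, rfl⟩
  have how : orderOf (w : QuaternionGroup (2 ^ (k + 2))) = 8 := by
    rw [Subgroup.orderOf_coe, hw, MulEquiv.orderOf_eq, ← ho1, Subgroup.orderOf_mk]
  have hcomm : ∀ u v : K, u * v = v * u := by
    intro u v
    have h1 : e.symm u * e.symm v = e.symm v * e.symm u := by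
      apply Subtype.ext
      exact zpowers_comm g₁ _ _ (e.symm u).2 (e.symm v).2
    have h2 := congrArg e h1
    simpa using h2
  have hx : (QuaternionGroup.xa (0 : ZMod (2 * 2 ^ (k + 2))) : QuaternionGroup (2 ^ (k + 2))) ∈ K :=
    hle (Subgroup.mem_zpowers _)
  have h3 : (w : QuaternionGroup (2 ^ (k + 2))) * QuaternionGroup.xa 0 =
      (QuaternionGroup.xa 0 : QuaternionGroup (2 ^ (k + 2))) * (w : QuaternionGroup (2 ^ (k + 2))) :=
    congrArg Subtype.val (hcomm w ⟨_, hx⟩)
  rcases hwv : (w : QuaternionGroup (2 ^ (k + 2))) with i | i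
  · rw [hwv] at h3 how
    rw [QuaternionGroup.a_mul_xa, QuaternionGroup.xa_mul_a] at h3
    have h4 : (0 : ZMod (2 * 2 ^ (k + 2))) - i = 0 + i := by injection h3
    have h6 : i + i = 0 := by linear_combination (-1 : ZMod (2 * 2 ^ (k + 2))) * h4
    have h5 : (QuaternionGroup.a i : QuaternionGroup (2 ^ (k + 2))) ^ 2 = 1 := by
      rw [pow_two, QuaternionGroup.a_mul_a, QuaternionGroup.one_def, h6]
    have h7 := orderOf_dvd_of_pow_eq_one h5
    rw [how] at h7
    omega
  · rw [hwv] at how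
    rw [QuaternionGroup.orderOf_xa] at how
    omega

/-- A finite `p`-group with two distinct subgroups of order `p` has a subgroup of order `p ^ 2`
all of whose elements have order dividing `p`. -/
theorem exists_sq {Q : Type*} [Group Q] [Finite Q] (p : ℕ) [Fact p.Prime] (hQ : IsPGroup p Q)
    (H K : Subgroup Q) (hH : Nat.card H = p) (hK : Nat.card K = p) (hne : H ≠ K) :
    ∃ E : Subgroup Q, Nat.card E = p ^ 2 ∧ ∀ x ∈ E, x ^ p = 1 := by
  have hp := (Fact.out : p.Prime)
  haveI : Nontrivial Q := by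
    have h1 : Nontrivial H := Finite.one_lt_card_iff_nontrivial.mp (by rw [hH]; exact hp.one_lt)
    obtain ⟨a, b, hab⟩ := h1
    exact ⟨⟨(a : Q), b, fun h => hab (Subtype.ext h)⟩⟩
  haveI hcn := hQ.center_nontrivial
  have hpc : p ∣ Nat.card (Subgroup.center Q) := by
    rcases (hQ.to_subgroup (Subgroup.center Q)).card_eq_or_dvd with h | h
    · exfalso
      have h1 := Finite.one_lt_card_iff_nontrivial.mpr hcn
      omega
    · exact h
  obtain ⟨z, hz⟩ := exists_prime_orderOf_dvd_card' p hpc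
  obtain ⟨Z, hZ⟩ : ∃ Z : Subgroup Q, Z = Subgroup.zpowers (z : Q) := ⟨_, rfl⟩
  have hZc : Nat.card Z = p := by rw [hZ, Nat.card_zpowers, Subgroup.orderOf_coe, hz]
  have hZcen : ∀ n ∈ Z, ∀ g : Q, g * n = n * g := by
    intro n hn g
    rw [hZ] at hn
    have h1 : n ∈ Subgroup.center Q := (Subgroup.zpowers_le.mpr z.2) hn
    exact Subgroup.mem_center_iff.mp h1 g
  haveI hZn : Z.Normal := ⟨fun n hn g => by
    rw [hZcen n hn g, mul_inv_cancel_right]; exact hn⟩
  obtain ⟨H', hH', hH'Z⟩ : ∃ H' : Subgroup Q, Nat.card H' = p ∧ H' ≠ Z := by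
    by_cases h : H = Z
    · exact ⟨K, hK, fun h' => hne (h.trans h'.symm)⟩
    · exact ⟨H, hH, h⟩
  refine ⟨H' ⊔ Z, ?_, ?_⟩
  · have hdvd := Cfsg.Agent.Lib.Lead.Cores.card_sup_dvd H' Z
    rw [hH', hZc, ← pow_two] at hdvd
    obtain ⟨i, hi, hi'⟩ := (Nat.dvd_prime_pow hp).mp hdvd
    have hle1 := Subgroup.card_le_of_le (le_sup_right : Z ≤ H' ⊔ Z)
    rw [hZc] at hle1
    interval_cases i
    · exfalso
      rw [hi', pow_zero] at hle1
      have := hp.one_lt
      omega
    · exfalso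
      rw [pow_one] at hi'
      have h1 : Z = H' ⊔ Z := Subgroup.eq_of_le_of_card_ge le_sup_right (by rw [hi', hZc])
      have h2 : H' = H' ⊔ Z := Subgroup.eq_of_le_of_card_ge le_sup_left (by rw [hi', hH'])
      exact hH'Z (h2.trans h1.symm)
    · exact hi'
  · intro x hx
    have hx' : x ∈ ((H' ⊔ Z : Subgroup Q) : Set Q) := hx
    rw [Subgroup.mul_normal] at hx'
    obtain ⟨h, hh, n, hn, rfl⟩ := Set.mem_mul.mp hx'
    have hcomm : Commute h n := hZcen n hn h
    rw [hcomm.mul_pow]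
    have e1 : h ^ p = 1 := by
      have h1 := congrArg Subtype.val (pow_card_eq_one' (x := (⟨h, hh⟩ : H')))
      rw [hH'] at h1
      simpa using h1
    have e2 : n ^ p = 1 := by
      have h1 := congrArg Subtype.val (pow_card_eq_one' (x := (⟨n, hn⟩ : Z)))
      rw [hZc] at h1
      simpa using h1
    rw [e1, e2, mul_one]

/-- A finite `p`-group in which subgroups of equal order are isomorphic is cyclic, quaternion of
order 8, or of exponent `p`. -/
theorem cases_of_iso {Q : Type*} [Group Q] [Finite Q] (p : ℕ) [Fact p.Prime] (hQ : IsPGroup p Q)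
    (hI : ∀ H K : Subgroup Q, Nat.card H = Nat.card K → Nonempty (H ≃* K)) :
    IsCyclic Q ∨ Nonempty (Q ≃* QuaternionGroup 2) ∨ ∀ x : Q, x ^ p = 1 := by
  have hp := (Fact.out : p.Prime)
  by_cases hE : Set.ncard {g : Q | g ^ p = 1} ≤ p
  · rcases Cfsg.Agent.Lib.Helper18.UniqueInvolution.cyclic_or_quaternion_of_unique p hQ hE with
      h | ⟨-, n, ⟨e⟩⟩
    · exact Or.inl h
    · rcases n with _ | _ | k
      · left
        haveI : IsCyclic (QuaternionGroup (2 ^ 0)) := QuaternionGroup.quaternionGroup_one_isCyclic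
        exact isCyclic_of_surjective e.symm.toMonoidHom e.symm.surjective
      · exact Or.inr (Or.inl ⟨e⟩)
      · exfalso
        apply quat_not_iso k
        intro H K hHK
        have c1 : Nat.card (H.map e.symm.toMonoidHom) = Nat.card H :=
          Subgroup.card_map_of_injective e.symm.injective
        have c2 : Nat.card (K.map e.symm.toMonoidHom) = Nat.card K :=
          Subgroup.card_map_of_injective e.symm.injective
        obtain ⟨f⟩ := hI (H.map e.symm.toMonoidHom) (K.map e.symm.toMonoidHom)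
          (by rw [c1, c2, hHK])
        exact ⟨(H.equivMapOfInjective _ e.symm.injective).trans
          (f.trans (K.equivMapOfInjective _ e.symm.injective).symm)⟩
  · right; right
    have h2 : ¬ ∀ H K : Subgroup Q, Nat.card H = p → Nat.card K = p → H = K := fun h =>
      hE (Cfsg.Agent.Lib.Helper18.UniqueInvolution.ncard_pow_le_of_unique p h)
    push Not at h2
    obtain ⟨H, K, hH, hK, hne⟩ := h2
    obtain ⟨E, hE2, hEx⟩ := exists_sq p hQ H K hH hK hne
    intro x
    by_contra hx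
    obtain ⟨k, hk⟩ := exists_orderOf_eq_prime_pow_iff.mpr (hQ x)
    have hk2 : 2 ≤ k := by
      by_contra h
      have h01 : k = 0 ∨ k = 1 := by omega
      rcases h01 with rfl | rfl
      · rw [pow_zero, orderOf_eq_one_iff] at hk
        exact hx (by rw [hk, one_pow])
      · rw [pow_one] at hk
        exact hx (by rw [← hk]; exact pow_orderOf_eq_one x)
    obtain ⟨y, hy⟩ : ∃ y : Q, y = x ^ (p ^ (k - 2)) := ⟨_, rfl⟩
    have hoy : orderOf y = p ^ 2 := by
      have hd : p ^ (k - 2) ∣ orderOf x := by rw [hk]; exact pow_dvd_pow p (by omega)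
      rw [hy, orderOf_pow_of_dvd (pow_ne_zero _ hp.ne_zero) hd, hk, Nat.pow_div (by omega) hp.pos]
      congr 1
      omega
    obtain ⟨e⟩ := hI (Subgroup.zpowers y) E (by rw [Nat.card_zpowers, hoy, hE2])
    have h3 : ((e ⟨y, Subgroup.mem_zpowers y⟩ : E) : Q) ^ p = 1 := hEx _ (e _).2
    have h4 : (e ⟨y, Subgroup.mem_zpowers y⟩) ^ p = 1 := Subtype.ext (by
      rw [Subgroup.coe_pow, h3]; rfl)
    rw [← map_pow, map_eq_one_iff e e.injective] at h4
    have h5 : y ^ p = 1 := congrArg Subtype.val h4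
    have h6 := orderOf_dvd_of_pow_eq_one h5
    rw [hoy] at h6
    have h7 := Nat.le_of_dvd hp.pos h6
    nlinarith [hp.one_lt]

/-- Two elements of order dividing `p` whose commutator is central generate a subgroup of order
at most `p ^ 3`. -/
theorem card_closure_pair_le {Q : Type*} [Group Q] [Finite Q] (p : ℕ) [Fact p.Prime]
    (hexp : ∀ x : Q, x ^ p = 1) (x y c : Q) (hc : x * y = y * x * c)
    (hcx : Commute c x) (hcy : Commute c y) :
    Nat.card (Subgroup.closure ({x, y} : Set Q)) ≤ p ^ 3 := by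
  have hp := (Fact.out : p.Prime)
  obtain ⟨T, hT⟩ : ∃ T : Set Q, T = {g | ∃ i j : ℕ, ∃ w ∈ Subgroup.zpowers c,
      g = x ^ i * y ^ j * w} := ⟨_, rfl⟩
  have hwx : ∀ w ∈ Subgroup.zpowers c, Commute w x := by
    intro w hw
    obtain ⟨m, rfl⟩ := Subgroup.mem_zpowers_iff.mp hw
    exact hcx.zpow_left m
  have hwy : ∀ w ∈ Subgroup.zpowers c, Commute w y := by
    intro w hw
    obtain ⟨m, rfl⟩ := Subgroup.mem_zpowers_iff.mp hw
    exact hcy.zpow_left m
  have hone : (1 : Q) ∈ T := by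
    rw [hT]
    exact ⟨0, 0, 1, Subgroup.one_mem _, by simp⟩
  have hmul : ∀ a b : Q, a ∈ T → b ∈ T → a * b ∈ T := by
    intro a b ha hb
    rw [hT] at ha hb ⊢
    obtain ⟨i, j, w, hw, rfl⟩ := ha
    obtain ⟨i', j', w', hw', rfl⟩ := hb
    have l1 := (Cfsg.Agent.Lib.Helper18.UniqueInvolution.pow_mul_comm_of_central y x c hc
      hcy hcx i').1
    have hc2 : y * x ^ i' = x ^ i' * y * (c ^ i')⁻¹ := by
      rw [l1]; group
    have hci : (c ^ i')⁻¹ ∈ Subgroup.zpowers c :=
      Subgroup.inv_mem _ (Subgroup.pow_mem _ (Subgroup.mem_zpowers c) _)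
    have l2 := (Cfsg.Agent.Lib.Helper18.UniqueInvolution.pow_mul_comm_of_central (x ^ i') y
      ((c ^ i')⁻¹) hc2 ((hwx _ hci).pow_right i') (hwy _ hci) j).1
    refine ⟨i + i', j + j', ((c ^ i')⁻¹) ^ j * w * w', ?_, ?_⟩
    · exact Subgroup.mul_mem _ (Subgroup.mul_mem _ (Subgroup.pow_mem _ hci _) hw) hw'
    · have e1 : w * (x ^ i' * y ^ j') = (x ^ i' * y ^ j') * w :=
        (((hwx w hw).pow_right i').mul_right ((hwy w hw).pow_right j')).eq
      have e2 : ((c ^ i')⁻¹) ^ j * y ^ j' = y ^ j' * ((c ^ i')⁻¹) ^ j :=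
        (((hwy _ hci).pow_right j').pow_left j).eq
      calc x ^ i * y ^ j * w * (x ^ i' * y ^ j' * w')
          = x ^ i * y ^ j * (w * (x ^ i' * y ^ j')) * w' := by group
        _ = x ^ i * y ^ j * ((x ^ i' * y ^ j') * w) * w' := by rw [e1]
        _ = x ^ i * (y ^ j * x ^ i') * y ^ j' * w * w' := by group
        _ = x ^ i * (x ^ i' * y ^ j * ((c ^ i')⁻¹) ^ j) * y ^ j' * w * w' := by rw [l2]
        _ = x ^ i * x ^ i' * y ^ j * (((c ^ i')⁻¹) ^ j * y ^ j') * w * w' := by group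
        _ = x ^ i * x ^ i' * y ^ j * (y ^ j' * ((c ^ i')⁻¹) ^ j) * w * w' := by rw [e2]
        _ = x ^ (i + i') * y ^ (j + j') * (((c ^ i')⁻¹) ^ j * w * w') := by
            rw [pow_add, pow_add]; group
  have hpow : ∀ a : Q, a ∈ T → ∀ n : ℕ, a ^ n ∈ T := by
    intro a ha n
    induction n with
    | zero => rw [pow_zero]; exact hone
    | succ n ih => rw [pow_succ]; exact hmul _ _ ih ha
  have hinv : ∀ a : Q, a ∈ T → a⁻¹ ∈ T := by
    intro a ha
    have h1 : a⁻¹ = a ^ (p - 1) := by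
      apply inv_eq_of_mul_eq_one_right
      rw [← pow_succ', Nat.sub_add_cancel hp.one_lt.le]
      exact hexp a
    rw [h1]
    exact hpow a ha _
  have hxT : x ∈ T := by
    rw [hT]; exact ⟨1, 0, 1, Subgroup.one_mem _, by simp⟩
  have hyT : y ∈ T := by
    rw [hT]; exact ⟨0, 1, 1, Subgroup.one_mem _, by simp⟩
  have hsub : ∀ g ∈ Subgroup.closure ({x, y} : Set Q), g ∈ T := by
    intro g hg
    induction hg using Subgroup.closure_induction with
    | mem a ha =>
      rcases ha with rfl | rfl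
      · exact hxT
      · exact hyT
    | one => exact hone
    | mul a b _ _ iha ihb => exact hmul a b iha ihb
    | inv a _ iha => exact hinv a iha
  obtain ⟨f, hf⟩ : ∃ f : Fin p × Fin p × Subgroup.zpowers c → Q,
      f = fun t => x ^ (t.1 : ℕ) * y ^ (t.2.1 : ℕ) * (t.2.2 : Q) := ⟨_, rfl⟩
  have hrange : ((Subgroup.closure ({x, y} : Set Q) : Subgroup Q) : Set Q) ⊆ Set.range f := by
    intro g hg
    have h1 := hsub g hg
    rw [hT] at h1
    obtain ⟨i, j, w, hw, rfl⟩ := h1
    refine ⟨(⟨i % p, Nat.mod_lt _ hp.pos⟩, ⟨j % p, Nat.mod_lt _ hp.pos⟩, ⟨w, hw⟩), ?_⟩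
    rw [hf]
    show x ^ (i % p) * y ^ (j % p) * w = x ^ i * y ^ j * w
    rw [← pow_eq_pow_mod i (hexp x), ← pow_eq_pow_mod j (hexp y)]
  have hcz : Nat.card (Subgroup.zpowers c) ≤ p := by
    rw [Nat.card_zpowers]
    exact Nat.le_of_dvd hp.pos (orderOf_dvd_of_pow_eq_one (hexp c))
  calc Nat.card (Subgroup.closure ({x, y} : Set Q))
      = Nat.card ((Subgroup.closure ({x, y} : Set Q) : Subgroup Q) : Set Q) := rfl
    _ ≤ Nat.card (Set.range f) := Nat.card_mono (Set.toFinite _) hrange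
    _ ≤ Nat.card (Fin p × Fin p × Subgroup.zpowers c) := Finite.card_range_le f
    _ = p * (p * Nat.card (Subgroup.zpowers c)) := by
        rw [Nat.card_prod, Nat.card_prod, Nat.card_eq_fintype_card, Fintype.card_fin]
    _ ≤ p * (p * p) := Nat.mul_le_mul_left _ (Nat.mul_le_mul_left _ hcz)
    _ = p ^ 3 := by ring

/-- In a finite group with a cyclic Sylow 2-subgroup, the product of two elements of odd order has
odd order. -/
theorem odd_mul_of_cyclic {N : Type*} [Group N] [Finite N] (P : Sylow 2 N)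
    (hcyc : IsCyclic (P : Subgroup N)) (x y : N) (hx : Odd (orderOf x)) (hy : Odd (orderOf y)) :
    Odd (orderOf (x * y)) := by
  by_cases h2 : 2 ∣ Nat.card N
  · have hmin : (Nat.card N).minFac = 2 := (Nat.minFac_eq_two_iff _).mpr h2
    have hP := IsCyclic.normalizer_le_centralizer hmin hcyc
    obtain ⟨τ, hτ⟩ : ∃ τ : N →* P, τ = MonoidHom.transferSylow P hP := ⟨_, rfl⟩
    have hodd : ¬ 2 ∣ Nat.card τ.ker := by
      rw [hτ]; exact MonoidHom.not_dvd_card_ker_transferSylow P hP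
    have hkerodd : Odd (Nat.card τ.ker) := by
      rw [← Nat.not_even_iff_odd, even_iff_two_dvd]
      exact hodd
    have hkermem : ∀ k : N, Odd (orderOf k) → k ∈ τ.ker := by
      intro k hk
      rw [MonoidHom.mem_ker]
      have h1 : orderOf (τ k) ∣ orderOf k := orderOf_map_dvd τ k
      obtain ⟨a, ha⟩ := P.2.exists_card_eq
      have h3 : orderOf (τ k) ∣ 2 ^ a := by
        rw [← ha]
        exact orderOf_dvd_natCard _
      have hcop : Nat.Coprime (2 ^ a) (orderOf k) := by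
        apply Nat.Coprime.pow_left
        apply (Nat.Prime.coprime_iff_not_dvd Nat.prime_two).mpr
        rw [← even_iff_two_dvd, Nat.not_even_iff_odd]
        exact hk
      have h4 := Nat.eq_one_of_dvd_coprimes hcop h3 h1
      exact orderOf_eq_one_iff.mp h4
    have hmem : x * y ∈ τ.ker := Subgroup.mul_mem _ (hkermem x hx) (hkermem y hy)
    exact hkerodd.of_dvd_nat (Subgroup.orderOf_dvd_natCard _ hmem)
  · have hodd : Odd (Nat.card N) := by
      rw [← Nat.not_even_iff_odd, even_iff_two_dvd]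
      exact h2
    exact hodd.of_dvd_nat (orderOf_dvd_natCard _)

/-- A finite `p`-group of exponent `p` in which subgroups of equal order are isomorphic is
commutative or has order `p ^ 3`. -/
theorem comm_or_cube {Q : Type*} [Group Q] [Finite Q] (p : ℕ) [Fact p.Prime] (hQ : IsPGroup p Q)
    (hI : ∀ H K : Subgroup Q, Nat.card H = Nat.card K → Nonempty (H ≃* K))
    (hexp : ∀ x : Q, x ^ p = 1) :
    (∀ x y : Q, x * y = y * x) ∨ Nat.card Q = p ^ 3 := by
  have hp := (Fact.out : p.Prime)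
  by_contra hcon
  push Not at hcon
  obtain ⟨⟨x₀, y₀, hxy₀⟩, hcard⟩ := hcon
  have hcen : Subgroup.center Q ≠ ⊤ := by
    intro h
    apply hxy₀
    have h1 : y₀ ∈ Subgroup.center Q := by rw [h]; trivial
    exact Subgroup.mem_center_iff.mp h1 x₀
  haveI hnt : Nontrivial (Q ⧸ Subgroup.center Q) := by
    apply Finite.one_lt_card_iff_nontrivial.mp
    have h1 : (Subgroup.center Q).index ≠ 1 := fun h => hcen (Subgroup.index_eq_one.mp h)
    have h0 : (Subgroup.center Q).index ≠ 0 := Subgroup.index_ne_zero_of_finite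
    rw [← Subgroup.index_eq_card]
    omega
  have hQq : IsPGroup p (Q ⧸ Subgroup.center Q) := hQ.to_quotient _
  haveI hcn := hQq.center_nontrivial
  obtain ⟨u, hu⟩ := exists_ne (1 : Subgroup.center (Q ⧸ Subgroup.center Q))
  obtain ⟨x, hx⟩ := QuotientGroup.mk_surjective (u : Q ⧸ Subgroup.center Q)
  have hxc : x ∉ Subgroup.center Q := by
    intro h
    apply hu
    apply Subtype.ext
    rw [← hx]
    exact (QuotientGroup.eq_one_iff x).mpr h
  have hxcomm : ∀ y : Q, x * y * x⁻¹ * y⁻¹ ∈ Subgroup.center Q := by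
    intro y
    rw [← QuotientGroup.eq_one_iff]
    have h1 := Subgroup.mem_center_iff.mp u.2 (y : Q ⧸ Subgroup.center Q)
    rw [← hx] at h1
    simp only [QuotientGroup.mk_mul, QuotientGroup.mk_inv]
    rw [← h1]
    group
  obtain ⟨y, hy⟩ : ∃ y : Q, x * y ≠ y * x := by
    by_contra h
    push Not at h
    exact hxc (Subgroup.mem_center_iff.mpr fun g => (h g).symm)
  obtain ⟨c, hc⟩ : ∃ c : Q, c = x * y * x⁻¹ * y⁻¹ := ⟨_, rfl⟩
  have hcc : c ∈ Subgroup.center Q := hc ▸ hxcomm y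
  have hc1 : c ≠ 1 := by
    intro h
    apply hy
    rw [h] at hc
    calc x * y = (x * y * x⁻¹ * y⁻¹) * (y * x) := by group
      _ = y * x := by rw [← hc, one_mul]
  have hcg : ∀ g : Q, Commute c g := fun g => (Subgroup.mem_center_iff.mp hcc g).symm
  have hrel : x * y = y * x * c := by
    rw [← (hcg (y * x)).eq, hc]
    group
  obtain ⟨N, hN⟩ : ∃ N : Subgroup Q, N = Subgroup.closure ({x, y} : Set Q) := ⟨_, rfl⟩
  have hNle : Nat.card N ≤ p ^ 3 := hN ▸ card_closure_pair_le p hexp x y c hrel (hcg x) (hcg y)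
  have hxN : x ∈ N := hN ▸ Subgroup.subset_closure (by simp)
  have hyN : y ∈ N := hN ▸ Subgroup.subset_closure (by simp)
  have hNna : ¬ ∀ a b : N, a * b = b * a := fun h =>
    hy (congrArg Subtype.val (h ⟨x, hxN⟩ ⟨y, hyN⟩))
  obtain ⟨k, hk⟩ := (hQ.to_subgroup N).exists_card_eq
  have hk3 : k = 3 := by
    have hle : k ≤ 3 := by
      rw [hk] at hNle
      exact (Nat.pow_le_pow_iff_right hp.one_lt).mp hNle
    by_contra hne
    apply hNna
    have h012 : k = 0 ∨ k = 1 ∨ k = 2 := by omega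
    rcases h012 with rfl | rfl | rfl
    · rw [pow_zero] at hk
      haveI : Subsingleton N := (Nat.card_eq_one_iff_unique.mp hk).1
      intro a b
      rw [Subsingleton.elim a b]
    · rw [pow_one] at hk
      haveI := isCyclic_of_prime_card hk
      intro a b
      exact cyclic_comm a b
    · exact IsPGroup.commutative_of_card_eq_prime_sq hk
  subst hk3
  obtain ⟨n, hn⟩ := hQ.exists_card_eq
  have hn3 : 3 ≤ n := by
    have h1 := Subgroup.card_subgroup_dvd_card N
    rw [hk, hn] at h1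
    exact (Nat.pow_dvd_pow_iff_le_right hp.one_lt).mp h1
  have hn4 : 4 ≤ n := by
    rcases Nat.lt_or_ge 3 n with h | h
    · exact h
    · exfalso
      apply hcard
      rw [hn]
      congr 1
      omega
  obtain ⟨Z, hZ⟩ : ∃ Z : Subgroup Q, Z = Subgroup.zpowers c := ⟨_, rfl⟩
  have hoc : orderOf c = p := orderOf_eq_prime (hexp c) hc1
  have hZc : Nat.card Z = p := by rw [hZ, Nat.card_zpowers, hoc]
  have hZcen : Z ≤ Subgroup.center Q := by rw [hZ]; exact Subgroup.zpowers_le.mpr hcc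
  haveI hZn : Z.Normal := ⟨fun m hm g => by
    rw [Subgroup.mem_center_iff.mp (hZcen hm) g, mul_inv_cancel_right]; exact hm⟩
  have hidx : p * Z.index = p ^ n := by
    have h1 := Subgroup.card_mul_index Z
    rw [hZc, hn] at h1
    exact h1
  haveI hnt2 : Nontrivial (Q ⧸ Z) := by
    apply Finite.one_lt_card_iff_nontrivial.mp
    rw [← Subgroup.index_eq_card]
    by_contra hle
    have h1 : Z.index ≤ 1 := by omega
    have h2 : p ^ n ≤ p := by
      rw [← hidx]
      calc p * Z.index ≤ p * 1 := Nat.mul_le_mul_left _ h1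
        _ = p := mul_one p
    have h3 : p ^ 2 ≤ p ^ n := Nat.pow_le_pow_right hp.pos (by omega)
    nlinarith [hp.one_lt]
  haveI hcn2 := (hQ.to_quotient Z).center_nontrivial
  obtain ⟨ū, hū⟩ := exists_ne (1 : Subgroup.center (Q ⧸ Z))
  obtain ⟨u', hu'⟩ := QuotientGroup.mk_surjective (ū : Q ⧸ Z)
  have huZ : u' ∉ Z := by
    intro h
    apply hū
    apply Subtype.ext
    rw [← hu']
    exact (QuotientGroup.eq_one_iff u').mpr h
  have hucomm : ∀ g : Q, g * u' * g⁻¹ * u'⁻¹ ∈ Z := by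
    intro g
    rw [← QuotientGroup.eq_one_iff]
    have h1 := Subgroup.mem_center_iff.mp ū.2 (g : Q ⧸ Z)
    rw [← hu'] at h1
    simp only [QuotientGroup.mk_mul, QuotientGroup.mk_inv]
    rw [h1]
    group
  have hu1 : u' ≠ 1 := fun h => huZ (h ▸ Subgroup.one_mem Z)
  have hou : orderOf u' = p := orderOf_eq_prime (hexp u') hu1
  obtain ⟨W, hW⟩ : ∃ W : Subgroup Q, W = Subgroup.zpowers u' ⊔ Z := ⟨_, rfl⟩
  have huW : u' ∈ W := by rw [hW]; exact Subgroup.mem_sup_left (Subgroup.mem_zpowers u')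
  have hZW : Z ≤ W := by rw [hW]; exact le_sup_right
  have hWc : Nat.card W = p ^ 2 := by
    have hdvd := Cfsg.Agent.Lib.Lead.Cores.card_sup_dvd (Subgroup.zpowers u') Z
    rw [Nat.card_zpowers, hou, hZc, ← pow_two, ← hW] at hdvd
    obtain ⟨i, hi, hi'⟩ := (Nat.dvd_prime_pow hp).mp hdvd
    have hle1 := Subgroup.card_le_of_le hZW
    rw [hZc] at hle1
    interval_cases i
    · exfalso
      rw [hi', pow_zero] at hle1
      have := hp.one_lt
      omega
    · exfalso
      rw [pow_one] at hi'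
      have h1 : Z = W := Subgroup.eq_of_le_of_card_ge hZW (by rw [hi', hZc])
      exact huZ (h1 ▸ huW)
    · exact hi'
  obtain ⟨φ, hφ⟩ : ∃ φ : Q →* Q, ∀ g : Q, φ g = g * u' * g⁻¹ * u'⁻¹ := by
    refine ⟨MonoidHom.mk' (fun g => g * u' * g⁻¹ * u'⁻¹) ?_, fun g => rfl⟩
    intro a b
    have hb : b * u' * b⁻¹ * u'⁻¹ ∈ Subgroup.center Q := hZcen (hucomm b)
    have h1 := Subgroup.mem_center_iff.mp hb a
    calc a * b * u' * (a * b)⁻¹ * u'⁻¹
        = a * (b * u' * b⁻¹ * u'⁻¹) * (u' * a⁻¹ * u'⁻¹) := by group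
      _ = (b * u' * b⁻¹ * u'⁻¹) * a * (u' * a⁻¹ * u'⁻¹) := by rw [h1]
      _ = (b * u' * b⁻¹ * u'⁻¹) * (a * u' * a⁻¹ * u'⁻¹) := by group
      _ = (a * u' * a⁻¹ * u'⁻¹) * (b * u' * b⁻¹ * u'⁻¹) :=
          (Subgroup.mem_center_iff.mp hb _).symm
  have hrange : φ.range ≤ Z := by
    rintro _ ⟨g, rfl⟩
    rw [hφ]
    exact hucomm g
  have hrc : Nat.card φ.range ≤ p := by
    have h1 := Subgroup.card_le_of_le hrange
    rwa [hZc] at h1
  have hker : p ^ n ≤ Nat.card φ.ker * p := by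
    rw [← hn, ← Subgroup.card_mul_index φ.ker, Subgroup.index_ker]
    exact Nat.mul_le_mul_left _ hrc
  have hkerW : ¬ φ.ker ≤ W := by
    intro hle
    have h1 := Subgroup.card_le_of_le hle
    rw [hWc] at h1
    have h2 : p ^ n ≤ p ^ 2 * p := hker.trans (Nat.mul_le_mul_right _ h1)
    have h3 : p ^ 4 ≤ p ^ n := Nat.pow_le_pow_right hp.pos hn4
    have h4 : p ^ 2 * p = p ^ 3 := by ring
    rw [h4] at h2
    have h5 : p ^ 4 ≤ p ^ 3 := h3.trans h2
    have h6 := (Nat.pow_le_pow_iff_right hp.one_lt).mp h5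
    omega
  obtain ⟨v, hvker, hvW⟩ := SetLike.not_le_iff_exists.mp hkerW
  have hvu : v * u' = u' * v := by
    have h1 : φ v = 1 := hvker
    rw [hφ] at h1
    calc v * u' = (v * u' * v⁻¹ * u'⁻¹) * (u' * v) := by group
      _ = u' * v := by rw [h1, one_mul]
  obtain ⟨B, hB⟩ : ∃ B : Subgroup Q, B = Subgroup.closure ({c, u', v} : Set Q) := ⟨_, rfl⟩
  have hBcomm : ∀ a ∈ B, ∀ b ∈ B, a * b = b * a := by
    have hset : ∀ a ∈ ({c, u', v} : Set Q), ∀ b ∈ ({c, u', v} : Set Q), a * b = b * a := by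
      intro a ha b hb
      rcases ha with rfl | rfl | rfl
      · exact (hcg b).eq
      · rcases hb with rfl | rfl | rfl
        · exact ((hcg a).eq).symm
        · rfl
        · exact hvu.symm
      · rcases hb with rfl | rfl | rfl
        · exact ((hcg a).eq).symm
        · exact hvu
        · rfl
    have hic := Subgroup.isMulCommutative_closure hset
    intro a ha b hb
    rw [hB] at ha hb
    have h1 := hic.is_comm.comm (⟨a, ha⟩ : Subgroup.closure ({c, u', v} : Set Q)) ⟨b, hb⟩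
    exact congrArg Subtype.val h1
  have hWB : W ≤ B := by
    rw [hW, hB, hZ]
    apply sup_le
    · exact Subgroup.zpowers_le.mpr (Subgroup.subset_closure (by simp))
    · exact Subgroup.zpowers_le.mpr (Subgroup.subset_closure (by simp))
  have hvB : v ∈ B := by rw [hB]; exact Subgroup.subset_closure (by simp)
  obtain ⟨b, hb⟩ := (hQ.to_subgroup B).exists_card_eq
  have hb3 : 3 ≤ b := by
    by_contra hlt
    have h1 : p ^ b ≤ p ^ 2 := Nat.pow_le_pow_right hp.pos (by omega)
    have h2 : W = B := Subgroup.eq_of_le_of_card_ge hWB (by rw [hb, hWc]; exact h1)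
    exact hvW (h2 ▸ hvB)
  have hdvd3 : p ^ 3 ∣ Nat.card B := by rw [hb]; exact pow_dvd_pow p hb3
  obtain ⟨K, hK⟩ := Sylow.exists_subgroup_card_pow_prime p hdvd3
  have hKc : Nat.card (K.map B.subtype) = p ^ 3 := by
    rw [Subgroup.card_map_of_injective (Subgroup.subtype_injective _), hK]
  obtain ⟨e⟩ := hI N (K.map B.subtype) (by rw [hk, hKc])
  apply hNna
  intro a₁ a₂
  have h1 : ((e a₁ : K.map B.subtype) : Q) * (e a₂ : K.map B.subtype) =
      (e a₂ : K.map B.subtype) * (e a₁ : K.map B.subtype) := by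
    apply hBcomm
    · obtain ⟨w, -, hw⟩ := (e a₁).2
      rw [← hw]; exact w.2
    · obtain ⟨w, -, hw⟩ := (e a₂).2
      rw [← hw]; exact w.2
  have h2 : e a₁ * e a₂ = e a₂ * e a₁ := Subtype.ext h1
  rw [← map_mul, ← map_mul] at h2
  exact e.injective h2

end Cfsg.Agent.Lib.Helper29.SameOrd
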